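import Cfsg.Agent.Lib.PermComp.Spor.J1SpecA

/-!
# The element orders of the first Janko group
-/

namespace Cfsg.Agent.Lib.PermComp.Spor.J1Spec

open Cfsg.Agent.Lib.PermComp Cfsg.Agent.Lib.PermComp.Core
open Cfsg.Agent.Lib.PermComp.Spor.CertJ1 Cfsg.Agent.Lib.PermComp.Spor.J1
open Cfsg.Agent.Lib.PermComp.Spor.J1SpecA

section Concrete

theorem bit_mem0 (x : Nat) (h : bit mem0 x = true) : x ∈ reps := by
  unfold mem0 at h
  simp only [bit_setBit] at h
  have h0 : bit 0 x = false := by
    rw [bit_eq_testBit]; simp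
  simp only [h0, false_or, Bool.false_eq_true] at h
  have : reps = [0, 1, 2, 33, 42] := rfl
  rw [this]
  simp only [List.mem_cons, List.not_mem_nil, or_false]
  tauto

theorem cover (a : Fin 266) : ∃ k ∈ LS, ∃ r : Fin 266, (r : ℕ) ∈ reps ∧ k r = a := by
  let Q : Nat → Prop := fun x => ∃ a : Fin 266, (a : ℕ) = x ∧
    ∃ k ∈ LS, ∃ r : Fin 266, (r : ℕ) ∈ reps ∧ k r = a
  have hQ : ∀ c ∈ j1_G_lev1.gens, ∀ y, Q y → Q (app j1_w j1_mask c y) := by
    rintro c hc y ⟨a, rfl, k, hk, r, hr, rfl⟩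
    obtain ⟨g, hg⟩ : ∃ g : Equiv.Perm (Fin 266), Rep j1_w j1_mask e266 c g :=
      Simple.exists_rep_of_valid hm0 hid0 ((allL_eq_true _ _).1 lev1_valid c hc)
    refine ⟨g (k r), ?_, g * k, mul_mem (H_of_rep hc hg) hk, r, hr, rfl⟩
    have := hg (k r)
    exact this.symm
  have hmem : ∀ x, bit mem0 x = true → Q x := by
    intro x hx
    have hx' := bit_mem0 x hx
    have hlt : x < 266 := by
      simp only [reps, List.mem_cons, List.not_mem_nil, or_false] at hx'
      omega
    exact ⟨⟨x, hlt⟩, rfl, 1, one_mem _, ⟨x, hlt⟩, hx', rfl⟩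
  obtain ⟨a', ha', k, hk, r, hr, hkr⟩ :=
    coverOK_sound (n := j1_n) hQ coverTree mem0 hmem cover_ok a.1 a.2
  have : a' = a := Fin.ext ha'
  subst this
  exact ⟨k, hk, r, hr, hkr⟩

theorem conj_pow_eq_one {g k : Equiv.Perm (Fin 266)} {m : ℕ} (h : (k⁻¹ * g * k) ^ m = 1) :
    g ^ m = 1 := by
  have h1 := conj_pow (a := k⁻¹) (b := g) (i := m)
  rw [inv_inv, h] at h1
  have h2 : k * (k⁻¹ * g ^ m * k) * k⁻¹ = 1 := by
    rw [← h1]; group
  simpa [mul_assoc] using h2

/-- The constraint on the powers of the elements. -/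
theorem pow_all (g : Equiv.Perm (Fin 266)) (hg : g ∈ H266) :
    g ^ 6 = 1 ∨ g ^ 7 = 1 ∨ g ^ 10 = 1 ∨ g ^ 11 = 1 ∨ g ^ 15 = 1 ∨ g ^ 19 = 1 := by
  obtain ⟨hs, he⟩ := sem0
  obtain ⟨hl0, hls⟩ := hs
  have hls' : Sem j1_w j1_mask e266 j1_L j1_maskL [j1_G_lev1, j1_G_lev2] := hls
  obtain ⟨b, u, hbe, hub, htab, hlt, hnd, hbit, hnest, hKb, hfact⟩ := hl0
  obtain ⟨k, hk, r, hr, hkr⟩ := cover (g b)
  have hk0 : k b = b := hKb k hk
  have hkH : k ∈ H j1_w j1_mask e266 j1_G_lev0.gens := hnest hk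
  have hgH : g ∈ H j1_w j1_mask e266 j1_G_lev0.gens := by
    rw [he] at hg
    exact hg
  have hg' : k⁻¹ * g * k ∈ H j1_w j1_mask e266 j1_G_lev0.gens :=
    mul_mem (mul_mem (inv_mem hkH) hgH) hkH
  obtain ⟨a, ha, k', hk', hfa⟩ := hfact _ hg'
  have hgb : (k⁻¹ * g * k) b = r := by
    simp only [Equiv.Perm.mul_apply, hk0]
    rw [← hkr]
    simp
  have har : a = r := by
    have h1 : (u a * k') b = a := by
      rw [Equiv.Perm.mul_apply, hKb k' hk', (htab a ha).2.1]
    rw [← h1, ← hfa, hgb]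
  subst har
  have hb := (allL_eq_true _ _).1 big_ok (a : ℕ) hr
  rw [force_eq] at hb
  obtain ⟨d, hd, hP⟩ := enumAll_sound hm0 _ hls' _ (u a) (htab a ha).2.2.1 hb k' hk'
  rw [← hfa] at hd
  have := powCheck_sound hm0 hid0 hd hP
  rcases this with h | h | h | h | h | h
  · exact Or.inl (conj_pow_eq_one h)
  · exact Or.inr (Or.inl (conj_pow_eq_one h))
  · exact Or.inr (Or.inr (Or.inl (conj_pow_eq_one h)))
  · exact Or.inr (Or.inr (Or.inr (Or.inl (conj_pow_eq_one h))))
  · exact Or.inr (Or.inr (Or.inr (Or.inr (Or.inl (conj_pow_eq_one h)))))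
  · exact Or.inr (Or.inr (Or.inr (Or.inr (Or.inr (conj_pow_eq_one h)))))

theorem rep_powC {c : Nat} {g : Equiv.Perm (Fin 266)} (h : Rep j1_w j1_mask e266 c g) (k : Nat) :
    Rep j1_w j1_mask e266 (powC c k) (g ^ k) := by
  induction k with
  | zero =>
    rw [pow_zero]
    exact rep_one hid0
  | succ k ih =>
    rw [pow_succ]
    exact ih.comp hm0 h

theorem exists_order_of_code (c o : Nat) (ho : 0 < o) (hv : Simple.validB j1_n j1_w j1_mask j1_idc c = true)
    (hs : sift j1_n j1_w j1_mask j1_L j1_maskL j1_idc j1_G_levels c = true)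
    (h1 : powC c o = j1_idc)
    (h2 : ∀ p : ℕ, p.Prime → p ∣ o → app j1_w j1_mask (powC c (o / p)) 0 ≠ 0) :
    ∃ g : H266, orderOf g = o := by
  obtain ⟨g, hg⟩ : ∃ g : Equiv.Perm (Fin 266), Rep j1_w j1_mask e266 c g :=
    Simple.exists_rep_of_valid hm0 hid0 hv
  have hmem : g ∈ H266 := by
    rw [sem0.2]
    exact sift_sound_of_sem hm0 hid0 _ sem0.1 c g hg hs
  refine ⟨⟨g, hmem⟩, ?_⟩
  have : orderOf g = o := by
    refine orderOf_eq_of_pow_and_pow_div_prime ho ((rep_powC hg o).eq_one hid0 h1) ?_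
    intro p hp hd h
    apply h2 p hp hd
    have := rep_powC hg (o / p) (0 : Fin 266)
    rw [h] at this
    exact this
  rw [← this]
  exact Subgroup.orderOf_mk g hmem


theorem ex6 : ∃ g : H266, orderOf g = 6 := by
  refine exists_order_of_code el6 6 (by norm_num) el6_valid el6_sift el6_pow ?_
  intro p hp hd
  have hle : p ≤ 6 := Nat.le_of_dvd (by norm_num) hd
  have h : p = 2 ∨ p = 3 := by
    interval_cases p <;> first | (exfalso; revert hp; norm_num; done) | (exfalso; revert hd; norm_num; done) | simp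
  rcases h with rfl | rfl
  · exact el6_moved2
  · exact el6_moved3

theorem ex7 : ∃ g : H266, orderOf g = 7 := by
  refine exists_order_of_code el7 7 (by norm_num) el7_valid el7_sift el7_pow ?_
  intro p hp hd
  have hle : p ≤ 7 := Nat.le_of_dvd (by norm_num) hd
  have h : p = 7 := by
    interval_cases p <;> first | (exfalso; revert hp; norm_num; done) | (exfalso; revert hd; norm_num; done) | simp
  rcases h with rfl
  · exact el7_moved7

theorem ex10 : ∃ g : H266, orderOf g = 10 := by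
  refine exists_order_of_code el10 10 (by norm_num) el10_valid el10_sift el10_pow ?_
  intro p hp hd
  have hle : p ≤ 10 := Nat.le_of_dvd (by norm_num) hd
  have h : p = 2 ∨ p = 5 := by
    interval_cases p <;> first | (exfalso; revert hp; norm_num; done) | (exfalso; revert hd; norm_num; done) | simp
  rcases h with rfl | rfl
  · exact el10_moved2
  · exact el10_moved5

theorem ex11 : ∃ g : H266, orderOf g = 11 := by
  refine exists_order_of_code el11 11 (by norm_num) el11_valid el11_sift el11_pow ?_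
  intro p hp hd
  have hle : p ≤ 11 := Nat.le_of_dvd (by norm_num) hd
  have h : p = 11 := by
    interval_cases p <;> first | (exfalso; revert hp; norm_num; done) | (exfalso; revert hd; norm_num; done) | simp
  rcases h with rfl
  · exact el11_moved11

theorem ex15 : ∃ g : H266, orderOf g = 15 := by
  refine exists_order_of_code el15 15 (by norm_num) el15_valid el15_sift el15_pow ?_
  intro p hp hd
  have hle : p ≤ 15 := Nat.le_of_dvd (by norm_num) hd
  have h : p = 3 ∨ p = 5 := by
    interval_cases p <;> first | (exfalso; revert hp; norm_num; done) | (exfalso; revert hd; norm_num; done) | simp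
  rcases h with rfl | rfl
  · exact el15_moved3
  · exact el15_moved5

theorem ex19 : ∃ g : H266, orderOf g = 19 := by
  refine exists_order_of_code el19 19 (by norm_num) el19_valid el19_sift el19_pow ?_
  intro p hp hd
  have hle : p ≤ 19 := Nat.le_of_dvd (by norm_num) hd
  have h : p = 19 := by
    interval_cases p <;> first | (exfalso; revert hp; norm_num; done) | (exfalso; revert hd; norm_num; done) | simp
  rcases h with rfl
  · exact el19_moved19


/-- The set of element orders of the group on 266 points. -/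
theorem range_orderOf_H266 :
    Set.range (orderOf : H266 → ℕ) = {1, 2, 3, 5, 6, 7, 10, 11, 15, 19} := by
  ext x
  simp only [Set.mem_range, Set.mem_insert_iff, Set.mem_singleton_iff]
  constructor
  · rintro ⟨g, rfl⟩
    have hg := pow_all g.1 g.2
    have hord : orderOf g = orderOf g.1 := Subgroup.orderOf_coe g |>.symm
    rw [hord]
    generalize hy : orderOf g.1 = y
    have key : y ∣ 6 ∨ y ∣ 7 ∨ y ∣ 10 ∨ y ∣ 11 ∨ y ∣ 15 ∨ y ∣ 19 := by
      rw [← hy]
      rcases hg with h | h | h | h | h | h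
      · exact Or.inl (orderOf_dvd_of_pow_eq_one h)
      · exact Or.inr (Or.inl (orderOf_dvd_of_pow_eq_one h))
      · exact Or.inr (Or.inr (Or.inl (orderOf_dvd_of_pow_eq_one h)))
      · exact Or.inr (Or.inr (Or.inr (Or.inl (orderOf_dvd_of_pow_eq_one h))))
      · exact Or.inr (Or.inr (Or.inr (Or.inr (Or.inl (orderOf_dvd_of_pow_eq_one h)))))
      · exact Or.inr (Or.inr (Or.inr (Or.inr (Or.inr (orderOf_dvd_of_pow_eq_one h)))))
    have hle : y ≤ 19 := by
      rcases key with h | h | h | h | h | h <;> have := Nat.le_of_dvd (by norm_num) h <;> omega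
    clear hy hg hord
    interval_cases y <;> first | (revert key; decide) | simp
  · have powOrd : ∀ (m d : ℕ), 0 < d → d ∣ m → (∃ g : H266, orderOf g = m) → ∃ g : H266, orderOf g = d := by
      rintro m d hd ⟨t, rfl⟩ ⟨g, hg⟩
      have ht : t ≠ 0 := by
        rintro rfl
        simpa [hg] using (orderOf_pos g).ne'
      refine ⟨g ^ t, ?_⟩
      rw [orderOf_pow_of_dvd ht ⟨d, by rw [hg]; ring⟩, hg]
      exact Nat.mul_div_cancel _ (Nat.pos_of_ne_zero ht)
    rintro (rfl | rfl | rfl | rfl | rfl | rfl | rfl | rfl | rfl | rfl)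
    · exact ⟨1, orderOf_one⟩
    · exact powOrd 6 2 (by norm_num) (by norm_num) ex6
    · exact powOrd 6 3 (by norm_num) (by norm_num) ex6
    · exact powOrd 10 5 (by norm_num) (by norm_num) ex10
    · exact ex6
    · exact ex7
    · exact ex10
    · exact ex11
    · exact ex15
    · exact ex19

/-- The set of element orders of the first Janko group. -/
theorem range_orderOf_J1 :
    Set.range (orderOf : Cfsg.Spor.J1 → ℕ) = {1, 2, 3, 5, 6, 7, 10, 11, 15, 19} := by
  obtain ⟨φ⟩ := main.2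
  have φ' : (Cfsg.Spor.J1 : Subgroup A) ≃* H266 := φ
  rw [← range_orderOf_H266]
  ext x
  constructor
  · rintro ⟨g, rfl⟩
    exact ⟨φ' g, φ'.orderOf_eq g⟩
  · rintro ⟨g, rfl⟩
    exact ⟨φ'.symm g, φ'.symm.orderOf_eq g⟩

end Concrete

end Cfsg.Agent.Lib.PermComp.Spor.J1Spec
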